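import Mathlib
import Cfsg.Prelude
import Cfsg.Agent.Lib.Helper22.Generation

set_option autoImplicit false
set_option linter.unusedSectionVars false

/-! Elementary abelian 2-groups of automorphisms of `p`-groups, `p` odd. -/

namespace Cfsg.Agent.Lib.Helper46.EightAct

open Subgroup

variable {P : Type*} [Group P]

/-- generation by fixed points of a four-group of automorphisms (external form) -/
theorem gen2 [Finite P] (hsolv : Group.IsSolvable P) (hodd : ¬ 2 ∣ Nat.card P)
    (a b : MulAut P) (hab : a * b = b * a) (ha : a ^ 2 = 1) (hb : b ^ 2 = 1) (Y : Subgroup P)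
    (hYb : ∀ x, b x = x → x ∈ Y) (hYa : ∀ x, a x = x → x ∈ Y)
    (hYab : ∀ x, (a * b) x = x → x ∈ Y) : Y = ⊤ := by
  have hfin : Finite (P ⋊[MonoidHom.id (MulAut P)] MulAut P) :=
    Finite.of_equiv _ SemidirectProduct.equivProd.symm
  have h2 : Fact (Nat.Prime 2) := ⟨Nat.prime_two⟩
  set X : Subgroup (P ⋊[MonoidHom.id (MulAut P)] MulAut P) := SemidirectProduct.inl.range with hX
  have hXn : X.Normal := by
    rw [hX, SemidirectProduct.range_inl_eq_ker_rightHom]; infer_instance
  have hXsolv : Group.IsSolvable X :=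
    Group.isSolvable_of_surjective (f := (SemidirectProduct.inl :
      P →* P ⋊[MonoidHom.id (MulAut P)] MulAut P).rangeRestrict)
      (MonoidHom.rangeRestrict_surjective _)
  have hXcard : Nat.card X = Nat.card P :=
    (Nat.card_congr (MonoidHom.ofInjective (SemidirectProduct.inl_injective
      (φ := MonoidHom.id (MulAut P)))).toEquiv).symm
  have hnorm : ∀ g, g ∈ normalizer (X : Set (P ⋊[MonoidHom.id (MulAut P)] MulAut P)) := by
    intro g
    rw [normalizer_eq_top_iff.2 hXn]; exact mem_top g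
  have key := Cfsg.Agent.Lib.Helper22.le_genTwo_of_isSolvable (p := 2)
    (SemidirectProduct.inr a : P ⋊[MonoidHom.id (MulAut P)] MulAut P) (SemidirectProduct.inr b)
    (by rw [← map_mul, hab, map_mul]) (by rw [← map_pow, ha, map_one])
    (by rw [← map_pow, hb, map_one]) _ X rfl hXsolv (by rw [hXcard]; exact hodd)
    (hnorm _) (hnorm _)
  have hgen : ∀ c : MulAut P, (∀ x, c x = x → x ∈ Y) →
      X ⊓ centralizer {(SemidirectProduct.inr c : P ⋊[MonoidHom.id (MulAut P)] MulAut P)}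
        ≤ Y.map SemidirectProduct.inl := by
    rintro c hc u ⟨⟨x, rfl⟩, hu⟩
    replace hu : (SemidirectProduct.inl x : P ⋊[MonoidHom.id (MulAut P)] MulAut P) ∈
        centralizer {(SemidirectProduct.inr c : P ⋊[MonoidHom.id (MulAut P)] MulAut P)} := hu
    rw [mem_centralizer_singleton_iff] at hu
    refine ⟨x, hc x ?_, rfl⟩
    apply SemidirectProduct.inl_injective (φ := MonoidHom.id (MulAut P))
    have h1 := SemidirectProduct.inl_aut (φ := MonoidHom.id (MulAut P)) c x
    rw [MonoidHom.id_apply] at h1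
    rw [h1, map_inv]
    first
      | rw [hu, mul_inv_cancel_right]
      | rw [← hu, mul_inv_cancel_right]
  have hle : Cfsg.Agent.Lib.Helper22.genTwo X
      (SemidirectProduct.inr a : P ⋊[MonoidHom.id (MulAut P)] MulAut P) (SemidirectProduct.inr b)
      ≤ Y.map SemidirectProduct.inl := by
    apply sup_le (hgen b hYb)
    apply iSup_le
    intro i
    rw [← map_pow, ← map_mul]
    apply hgen
    rcases Nat.even_or_odd' i with ⟨k, rfl | rfl⟩
    · rw [pow_mul, hb, one_pow, mul_one]; exact hYa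
    · rw [pow_succ, pow_mul, hb, one_pow, one_mul]; exact hYab
  rw [eq_top_iff]
  intro x _
  obtain ⟨y, hy, hxy⟩ := hle (key ⟨x, rfl⟩)
  rwa [← SemidirectProduct.inl_injective hxy]

theorem eq_one_of_sq {p : ℕ} (hp : p.Prime) (hp2 : p ≠ 2) (hP : IsPGroup p P) {x : P}
    (hx : x ^ 2 = 1) : x = 1 := by
  obtain ⟨k, hk⟩ := hP x
  have h1 : Nat.gcd 2 (p ^ k) = 1 := by
    apply Nat.Coprime.pow_right
    exact (Nat.coprime_primes Nat.prime_two hp).2 (Ne.symm hp2)
  have h2 := pow_gcd_eq_one.2 ⟨hx, hk⟩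
  rwa [h1, pow_one] at h2

theorem eq_one_of_eq_inv {p : ℕ} (hp : p.Prime) (hp2 : p ≠ 2) (hP : IsPGroup p P) {x : P}
    (hx : x = x⁻¹) : x = 1 := by
  apply eq_one_of_sq hp hp2 hP
  rw [pow_two]
  nth_rewrite 1 [hx]
  exact inv_mul_cancel x

/-- an involutory automorphism fixes or inverts a generator of an invariant cyclic subgroup -/
theorem fix_or_inv [Finite P] {p : ℕ} (hp : p.Prime) (hp2 : p ≠ 2) (hP : IsPGroup p P)
    (T : MulAut P) (hT : T ^ 2 = 1) (g : P) (hg : T g ∈ zpowers g) : T g = g ∨ T g = g⁻¹ := by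
  obtain ⟨k0, hk0⟩ := hP g
  obtain ⟨m, -, hm⟩ := (Nat.dvd_prime_pow hp).1 (orderOf_dvd_of_pow_eq_one hk0)
  obtain ⟨k, hk⟩ := (isOfFinOrder_of_finite g).mem_powers_iff_mem_zpowers.2 hg
  have hk' : T g = g ^ k := hk.symm
  have h1 : T (T g) = g := by
    have : (T ^ 2) g = g := by rw [hT]; rfl
    simpa [pow_two] using this
  rw [hk', map_pow, hk', ← pow_mul] at h1
  have h2 : k * k ≡ 1 [MOD p ^ m] := by
    rw [← hm]
    apply pow_eq_pow_iff_modEq.1
    rw [h1, pow_one]
  have h3 : ((p ^ m : ℕ) : ℤ) ∣ ((k : ℤ) - 1) * ((k : ℤ) + 1) := by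
    have := (Nat.modEq_iff_dvd.1 h2.symm)
    push_cast at this ⊢
    have e : ((k : ℤ) - 1) * ((k : ℤ) + 1) = (k : ℤ) * k - 1 := by ring
    rw [e]; exact this
  have hpi : Prime (p : ℤ) := Nat.prime_iff_prime_int.1 hp
  push_cast at h3
  by_cases hd : (p : ℤ) ∣ (k : ℤ) + 1
  · right
    have hnd : ¬ (p : ℤ) ∣ (k : ℤ) - 1 := by
      intro h
      have h4 : (p : ℤ) ∣ 2 := by
        have := dvd_sub hd h
        have e : ((k : ℤ) + 1) - ((k : ℤ) - 1) = 2 := by ring
        rwa [e] at this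
      have h5 : p ∣ 2 := by exact_mod_cast h4
      exact hp2 ((Nat.prime_dvd_prime_iff_eq hp Nat.prime_two).1 h5)
    have hc : IsCoprime ((p : ℤ) ^ m) ((k : ℤ) - 1) := (hpi.coprime_iff_not_dvd.2 hnd).pow_left
    have h6 : ((p : ℤ) ^ m) ∣ (k : ℤ) + 1 := hc.dvd_of_dvd_mul_left h3
    have h7 : p ^ m ∣ k + 1 := by exact_mod_cast h6
    rw [← hm] at h7
    have h8 := orderOf_dvd_iff_pow_eq_one.1 h7
    rw [hk', eq_inv_iff_mul_eq_one, ← pow_succ]
    exact h8
  · left
    have hc : IsCoprime ((p : ℤ) ^ m) ((k : ℤ) + 1) := (hpi.coprime_iff_not_dvd.2 hd).pow_left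
    have h6 : ((p : ℤ) ^ m) ∣ (k : ℤ) - 1 := hc.dvd_of_dvd_mul_right h3
    have h7 : 1 ≡ k [MOD p ^ m] := by
      rw [Nat.modEq_iff_dvd]
      push_cast
      exact h6
    rw [← hm] at h7
    rw [hk']
    have := pow_eq_pow_iff_modEq.2 h7
    rw [pow_one] at this
    exact this.symm

/-- the fixed points of `T` form a cyclic group -/
def Cyc (T : MulAut P) : Prop := ∃ g : P, ∀ x : P, (T x = x ↔ x ∈ Subgroup.zpowers g)

theorem act_cyc [Finite P] {p : ℕ} (hp : p.Prime) (hp2 : p ≠ 2) (hP : IsPGroup p P)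
    {S T : MulAut P} (hST : S * T = T * S) (hS : S ^ 2 = 1) (hT : Cyc T) :
    (∀ x, T x = x → S x = x) ∨ (∀ x, T x = x → S x = x⁻¹) := by
  obtain ⟨h, hh⟩ := hT
  have h1 : T h = h := (hh h).2 (mem_zpowers h)
  have h2 : T (S h) = S h := by
    have : (T * S) h = (S * T) h := by rw [hST]
    simp only [MulAut.mul_apply] at this
    rw [this, h1]
  rcases fix_or_inv hp hp2 hP S hS h ((hh _).1 h2) with h3 | h3
  · left
    intro x hx
    obtain ⟨n, rfl⟩ := (hh x).1 hx
    rw [map_zpow, h3]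
  · right
    intro x hx
    obtain ⟨n, rfl⟩ := (hh x).1 hx
    rw [map_zpow, h3, inv_zpow]

/-- criterion for non-cyclic fixed points -/
theorem not_cyc [Finite P] {p : ℕ} (hp : p.Prime) (hp2 : p ≠ 2) (hP : IsPGroup p P)
    {S T : MulAut P} (hST : S * T = T * S) (hS : S ^ 2 = 1) {a b : P} (ha : T a = a) (hb : T b = b)
    (ha1 : a ≠ 1) (hb1 : b ≠ 1) (hSa : S a = a⁻¹) (hSb : S b = b) : ¬ Cyc T := by
  intro hT
  rcases act_cyc hp hp2 hP hST hS hT with h | h
  · exact ha1 (eq_one_of_eq_inv hp hp2 hP ((h a ha).symm.trans hSa))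
  · exact hb1 (eq_one_of_eq_inv hp hp2 hP (hSb.symm.trans (h b hb)))

/-- fixed points of `S` commute when an involution `T` commuting with `S` has no fixed point there -/
theorem comm_of_fpf [Finite P] {S T : MulAut P} (hST : S * T = T * S) (hT : T ^ 2 = 1)
    (hfpf : ∀ x, S x = x → T x = x → x = 1) : ∀ x y, S x = x → S y = y → x * y = y * x := by
  let F : Subgroup P :=
    { carrier := {x | S x = x}
      one_mem' := map_one S
      mul_mem' := fun {a b} ha hb => by
        show S (a * b) = a * b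
        rw [map_mul, ha, hb]
      inv_mem' := fun {a} ha => by
        show S a⁻¹ = a⁻¹
        rw [map_inv, ha] }
  have hTF : ∀ x : F, T x ∈ F := by
    intro x
    show S (T x) = T x
    have : (S * T) (x : P) = (T * S) x := by rw [hST]
    simp only [MulAut.mul_apply] at this
    rw [this, show S (x : P) = x from x.2]
  let φ : F →* F := (T.toMonoidHom.comp F.subtype).codRestrict F hTF
  have hφ : ∀ x : F, ((φ x : F) : P) = T x := fun x => rfl
  have h1 : MonoidHom.FixedPointFree φ := by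
    intro x hx
    apply Subtype.ext
    apply hfpf x x.2
    rw [← hφ, hx]
  have h2 : Function.Involutive φ := by
    intro x
    apply Subtype.ext
    rw [hφ, hφ]
    have : (T ^ 2) (x : P) = x := by rw [hT]; rfl
    simpa [pow_two] using this
  intro x y hx hy
  have := h1.commute_all_of_involutive h2 (⟨x, hx⟩ : F) ⟨y, hy⟩
  exact congrArg Subtype.val this.eq

/-- combination used three times -/
theorem comm_of_cyc [Finite P] {p : ℕ} (hp : p.Prime) (hp2 : p ≠ 2) (hP : IsPGroup p P)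
    {S T : MulAut P} (hST : S * T = T * S) (hS : S ^ 2 = 1) (hT : T ^ 2 = 1) (hc : Cyc T) {a : P}
    (ha : T a = a) (ha1 : a ≠ 1) (hSa : S a = a⁻¹) :
    ∀ x y, S x = x → S y = y → x * y = y * x := by
  apply comm_of_fpf hST hT
  intro x hSx hTx
  rcases act_cyc hp hp2 hP hST hS hc with h | h
  · exact absurd (eq_one_of_eq_inv hp hp2 hP ((h a ha).symm.trans hSa)) ha1
  · exact eq_one_of_eq_inv hp hp2 hP (hSx.symm.trans (h x hTx))

end Cfsg.Agent.Lib.Helper46.EightAct
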