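import Mathlib
import Cfsg.Prelude
import Cfsg.Agent.Lib.Helper46.EightAct
import Cfsg.Agent.Lib.Helper29.Metacyclic

set_option autoImplicit false
set_option linter.unusedSectionVars false

/-! Elementary abelian groups of order 8 of automorphisms: combinatorial part. -/

namespace Cfsg.Agent.Lib.Helper46.EightAct

open Subgroup

/-- a four-subgroup avoiding the coset `b I₀` (commutative version) -/
theorem exists_pair' {A : Type*} [CommGroup A] [Finite A] (h2 : ∀ x : A, x ^ 2 = 1)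
    (h8 : Nat.card A = 8) (I₀ : Subgroup A) (b : A) (hb0 : b ∉ I₀) :
    ∃ T₁ T₂ : A, T₁ ≠ 1 ∧ T₂ ≠ 1 ∧ T₁ * T₂ ≠ 1 ∧ (∀ i ∈ I₀, T₁ ≠ b * i) ∧
      (∀ i ∈ I₀, T₂ ≠ b * i) ∧ (∀ i ∈ I₀, T₁ * T₂ ≠ b * i) := by
  obtain ⟨J, hJ⟩ := Set.Finite.exists_maximal
    (s := {K : Subgroup A | I₀ ≤ K ∧ b ∉ K}) (Set.toFinite _) ⟨I₀, le_rfl, hb0⟩
  obtain ⟨⟨hJ0, hbJ⟩, hmax⟩ := hJ
  have hrel : J.index = 2 := by
    rw [index_eq_two_iff]
    refine ⟨b, fun x => ?_⟩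
    by_cases hxJ : x ∈ J
    · right
      refine ⟨hxJ, fun h => hbJ ?_⟩
      have : b = x⁻¹ * (x * b) := by group
      rw [this]
      exact mul_mem (inv_mem hxJ) h
    · left
      refine ⟨?_, hxJ⟩
      have hbK : b ∈ J ⊔ zpowers x := by
        by_contra hbK
        have h1 : J ⊔ zpowers x ≤ J := hmax (y := J ⊔ zpowers x)
          ⟨hJ0.trans le_sup_left, hbK⟩ le_sup_left
        exact hxJ (h1 (mem_sup_right (mem_zpowers x)))
      obtain ⟨j, hj, y, hy, hjy⟩ := mem_sup.1 hbK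
      obtain ⟨n, rfl⟩ := mem_zpowers_iff.1 hy
      have hx2 : x ^ (2 : ℤ) = 1 := by exact_mod_cast h2 x
      rcases Int.even_or_odd' n with ⟨k, rfl | rfl⟩
      · rw [zpow_mul, hx2, one_zpow, mul_one] at hjy
        exact absurd (hjy ▸ hj) hbJ
      · rw [zpow_add, zpow_mul, hx2, one_zpow, one_mul, zpow_one] at hjy
        rw [← hjy, ← mul_assoc, mul_comm x j, mul_assoc, ← pow_two, h2 x, mul_one]
        exact hj
  have hcard : Nat.card J = 4 := by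
    have h1 := J.card_mul_index
    rw [hrel, h8] at h1
    omega
  have hne : ∀ T ∈ J, ∀ i ∈ I₀, T ≠ b * i := by
    rintro T hT i hi rfl
    apply hbJ
    have : b = b * i * i⁻¹ := by group
    rw [this]
    exact mul_mem hT (inv_mem (hJ0 hi))
  obtain ⟨T₁, hT₁, h11⟩ : ∃ T₁ ∈ J, T₁ ≠ 1 := by
    by_contra h
    push Not at h
    have : J = ⊥ := (eq_bot_iff_forall J).2 h
    rw [this, card_bot] at hcard
    omega
  obtain ⟨T₂, hT₂, hT₂'⟩ : ∃ T₂ ∈ J, T₂ ∉ zpowers T₁ := by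
    by_contra h
    push Not at h
    have h1 : J ≤ zpowers T₁ := h
    have h3 := Subgroup.card_le_of_le h1
    rw [hcard, Nat.card_zpowers] at h3
    have h4 := orderOf_le_of_pow_eq_one (by norm_num) (h2 T₁)
    omega
  refine ⟨T₁, T₂, h11, ?_, ?_, hne _ hT₁, hne _ hT₂, hne _ (mul_mem hT₁ hT₂)⟩
  · rintro rfl
    exact hT₂' (one_mem _)
  · intro h
    apply hT₂'
    rw [← inv_eq_iff_mul_eq_one.2 h]
    exact inv_mem (mem_zpowers _)

/-- a four-subgroup avoiding the coset `b I₀` -/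
theorem exists_pair {A : Type*} [Group A] [Finite A] (I I₀ : Subgroup A)
    (hc : ∀ x ∈ I, ∀ y ∈ I, x * y = y * x) (h2 : ∀ x ∈ I, x ^ 2 = 1) (h8 : Nat.card I = 8)
    (hle : I₀ ≤ I) (b : A) (hb : b ∈ I) (hb0 : b ∉ I₀) :
    ∃ T₁ T₂ : A, T₁ ∈ I ∧ T₂ ∈ I ∧ T₁ ≠ 1 ∧ T₂ ≠ 1 ∧ T₁ * T₂ ≠ 1 ∧ (∀ i ∈ I₀, T₁ ≠ b * i) ∧
      (∀ i ∈ I₀, T₂ ≠ b * i) ∧ (∀ i ∈ I₀, T₁ * T₂ ≠ b * i) := by
  let _ : CommGroup I :=
    { (inferInstance : Group I) with mul_comm := fun x y => Subtype.ext (hc x x.2 y y.2) }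
  obtain ⟨T₁, T₂, h11, h21, h121, hn1, hn2, hn12⟩ := exists_pair' (A := I)
    (fun x => Subtype.ext (by simpa using h2 x x.2)) h8 (I₀.subgroupOf I) ⟨b, hb⟩
    (by rw [mem_subgroupOf]; exact hb0)
  refine ⟨T₁, T₂, T₁.2, T₂.2, fun h => h11 (Subtype.ext h), fun h => h21 (Subtype.ext h),
    fun h => h121 (Subtype.ext h), ?_, ?_, ?_⟩
  · intro i hi h
    exact hn1 ⟨i, hle hi⟩ (by rw [mem_subgroupOf]; exact hi) (Subtype.ext h)
  · intro i hi h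
    exact hn2 ⟨i, hle hi⟩ (by rw [mem_subgroupOf]; exact hi) (Subtype.ext h)
  · intro i hi h
    exact hn12 ⟨i, hle hi⟩ (by rw [mem_subgroupOf]; exact hi) (Subtype.ext h)

theorem eq_of_sign {P : Type*} [Group P] {p : ℕ} (hp : p.Prime) (hp2 : p ≠ 2) (hP : IsPGroup p P)
    {u u' w w' : P} (huu : u * u' = u' * u) (h1 : u * w = u' * w') (h2 : u⁻¹ * w = u'⁻¹ * w') :
    u = u' := by
  have h3 : u * u = u' * u' := by
    have e1 : u * u = (u * w) * (u⁻¹ * w)⁻¹ := by group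
    have e2 : u' * u' = (u' * w') * (u'⁻¹ * w')⁻¹ := by group
    rw [e1, e2, h1, h2]
  have h4 : (u * u'⁻¹) ^ 2 = 1 := by
    have hcm : Commute u u'⁻¹ := (show Commute u u' from huu).inv_right
    rw [hcm.mul_pow, pow_two, pow_two, h3]
    group
  have := eq_one_of_sq hp hp2 hP h4
  exact mul_inv_eq_one.1 this

/-- a commutative `p`-group with three "independent" nontrivial elements is not 2-generated -/
theorem not_two_gen {P : Type*} [Group P] [Finite P] {p : ℕ} (hp : p.Prime) (hp2 : p ≠ 2)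
    (hP : IsPGroup p P) (hcomm : ∀ x y : P, x * y = y * x) (g₁ g₂ g₃ : P) (e₁ e₂ : MulAut P)
    (h1 : g₁ ≠ 1) (h2 : g₂ ≠ 1) (h3 : g₃ ≠ 1)
    (h11 : e₁ g₁ = g₁⁻¹) (h12 : e₁ g₂ = g₂) (h13 : e₁ g₃ = g₃)
    (h22 : e₂ g₂ = g₂⁻¹) (h23 : e₂ g₃ = g₃) :
    ¬ ∃ a b : P, Subgroup.closure {a, b} = ⊤ := by
  rintro ⟨a, b, hab⟩
  have hpf : Fact p.Prime := ⟨hp⟩
  let _ : CommGroup P := { ‹Group P› with mul_comm := hcomm }
  have hN : IsCyclic (zpowers a) := inferInstance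
  have hQ : IsCyclic (P ⧸ zpowers a) := by
    refine ⟨⟨(b : P ⧸ zpowers a), fun x => ?_⟩⟩
    obtain ⟨x, rfl⟩ := QuotientGroup.mk_surjective x
    have hx : x ∈ closure {a, b} := by rw [hab]; exact mem_top x
    obtain ⟨m, n, rfl⟩ := mem_closure_pair.1 hx
    refine ⟨n, ?_⟩
    show ((b : P ⧸ zpowers a)) ^ n = ((a ^ m * b ^ n : P) : P ⧸ zpowers a)
    rw [QuotientGroup.mk_mul, QuotientGroup.mk_zpow, QuotientGroup.mk_zpow,
      (QuotientGroup.eq_one_iff a).2 (mem_zpowers a), one_zpow, one_mul]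
  let E : Subgroup P := (powMonoidHom p : P →* P).ker
  have hE : ∀ e ∈ E, e ^ p = 1 := fun e he => he
  have hle := Cfsg.Agent.Lib.Helper29.card_le_sq_of_metacyclic hp.pos (zpowers a) hN hQ E hE
  -- elements of order `p`
  have hex : ∀ g : P, g ≠ 1 → ∃ h ∈ zpowers g, orderOf h = p := by
    intro g hg
    have hpg : IsPGroup p (zpowers g) := hP.to_subgroup _
    obtain ⟨j, hj⟩ := IsPGroup.iff_card.1 hpg
    have hj0 : j ≠ 0 := by
      rintro rfl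
      rw [pow_zero, Nat.card_zpowers, orderOf_eq_one_iff] at hj
      exact hg hj
    obtain ⟨x, hx⟩ := exists_prime_orderOf_dvd_card' (G := zpowers g) p
      (by rw [hj]; exact dvd_pow_self p hj0)
    exact ⟨x, x.2, by rw [← hx, Subgroup.orderOf_coe]⟩
  obtain ⟨k₁, hk₁, ho₁⟩ := hex g₁ h1
  obtain ⟨k₂, hk₂, ho₂⟩ := hex g₂ h2
  obtain ⟨k₃, hk₃, ho₃⟩ := hex g₃ h3
  have hinv : ∀ (e : MulAut P) (g : P), e g = g⁻¹ → ∀ x ∈ zpowers g, e x = x⁻¹ := by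
    rintro e g he x ⟨n, rfl⟩
    show e (g ^ n) = (g ^ n)⁻¹
    rw [map_zpow, he, inv_zpow]
  have hfix : ∀ (e : MulAut P) (g : P), e g = g → ∀ x ∈ zpowers g, e x = x := by
    rintro e g he x ⟨n, rfl⟩
    show e (g ^ n) = g ^ n
    rw [map_zpow, he]
  have hsub : ∀ {k g : P}, k ∈ zpowers g → ∀ x ∈ zpowers k, x ∈ zpowers g :=
    fun hk x hx => (zpowers_le.2 hk) hx
  let φ : zpowers k₁ × zpowers k₂ × zpowers k₃ → E := fun t =>
    ⟨(t.1 : P) * ((t.2.1 : P) * (t.2.2 : P)), by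
      have hpw : ∀ {k : P}, orderOf k = p → ∀ x ∈ zpowers k, x ^ p = 1 := by
        rintro k hk x ⟨n, rfl⟩
        show (k ^ n) ^ p = 1
        rw [← zpow_natCast, ← zpow_mul, mul_comm, zpow_mul, zpow_natCast, ← hk, pow_orderOf_eq_one,
          one_zpow]
      show ((t.1 : P) * ((t.2.1 : P) * (t.2.2 : P))) ^ p = 1
      rw [mul_pow, mul_pow, hpw ho₁ _ t.1.2, hpw ho₂ _ t.2.1.2, hpw ho₃ _ t.2.2.2]
      simp⟩
  have hφ : Function.Injective φ := by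
    rintro ⟨x₁, x₂, x₃⟩ ⟨y₁, y₂, y₃⟩ hxy
    have h0 : (x₁ : P) * ((x₂ : P) * (x₃ : P)) = (y₁ : P) * ((y₂ : P) * (y₃ : P)) :=
      congrArg Subtype.val hxy
    have ha := congrArg e₁ h0
    simp only [map_mul] at ha
    rw [hinv e₁ g₁ h11 _ (hsub hk₁ _ x₁.2), hinv e₁ g₁ h11 _ (hsub hk₁ _ y₁.2),
      hfix e₁ g₂ h12 _ (hsub hk₂ _ x₂.2), hfix e₁ g₂ h12 _ (hsub hk₂ _ y₂.2),
      hfix e₁ g₃ h13 _ (hsub hk₃ _ x₃.2), hfix e₁ g₃ h13 _ (hsub hk₃ _ y₃.2)] at ha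
    have e1 : (x₁ : P) = y₁ := eq_of_sign hp hp2 hP (hcomm _ _) h0 ha
    rw [e1] at h0
    have h0' := mul_left_cancel h0
    have hb := congrArg e₂ h0'
    simp only [map_mul] at hb
    rw [hinv e₂ g₂ h22 _ (hsub hk₂ _ x₂.2), hinv e₂ g₂ h22 _ (hsub hk₂ _ y₂.2),
      hfix e₂ g₃ h23 _ (hsub hk₃ _ x₃.2), hfix e₂ g₃ h23 _ (hsub hk₃ _ y₃.2)] at hb
    have e2 : (x₂ : P) = y₂ := eq_of_sign hp hp2 hP (hcomm _ _) h0' hb
    rw [e2] at h0'
    have e3 : (x₃ : P) = y₃ := mul_left_cancel h0'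
    exact Prod.ext (Subtype.ext e1) (Prod.ext (Subtype.ext e2) (Subtype.ext e3))
  have hcard := Nat.card_le_card_of_injective φ hφ
  rw [Nat.card_prod, Nat.card_prod, Nat.card_zpowers, Nat.card_zpowers, Nat.card_zpowers, ho₁, ho₂,
    ho₃] at hcard
  have hp1 := hp.one_lt
  have : p * (p * p) ≤ p ^ 2 := hcard.trans hle
  nlinarith [hp.pos]

end Cfsg.Agent.Lib.Helper46.EightAct
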