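import Mathlib
import Cfsg.Prelude
import Cfsg.Agent.Lib.Helper46.EightAct2

set_option autoImplicit false
set_option linter.unusedSectionVars false

/-! Elementary abelian groups of order 8 of automorphisms: the main theorem. -/

namespace Cfsg.Agent.Lib.Helper46.EightAct

open Subgroup

theorem main {P : Type*} [Group P] [Finite P] (p : ℕ) (hp : p.Prime) (hp2 : p ≠ 2)
    (hP : IsPGroup p P) (I : Subgroup (MulAut P)) (hI : Cfsg.IsElementaryAbelian 2 I)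
    (hI8 : Nat.card ↥I = 8) (I₀ : Subgroup (MulAut P)) (hI₀ : I₀ < I)
    (hdisj : ∀ T ∈ I₀, T ≠ 1 → Cyc T)
    (hprod : ∀ T ∈ I, ∀ T' ∈ I, T ≠ 1 → T' ≠ 1 → ¬ Cyc T → ¬ Cyc T' → T * T' ∈ I₀) :
    IsMulCommutative P ∧ (∃ a b c : P, Subgroup.closure {a, b, c} = ⊤) ∧
      (¬ ∃ a b : P, Subgroup.closure {a, b} = ⊤) ∧
      Nat.card {T : MulAut P // T ∈ I ∧ T ≠ 1 ∧ ¬ Cyc T} = 3 ∧
      Subgroup.closure {T : MulAut P | T ∈ I ∧ T ≠ 1 ∧ ¬ Cyc T} = I ∧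
      (I₀ : Set (MulAut P)) = {S : MulAut P | ∃ T T' : MulAut P, T ∈ I ∧ T' ∈ I ∧ T ≠ 1 ∧ T' ≠ 1 ∧
        ¬ Cyc T ∧ ¬ Cyc T' ∧ S = T * T'} := by
  classical
  have hpf : Fact p.Prime := ⟨hp⟩
  have hIc := hI.1
  have hc : ∀ x ∈ I, ∀ y ∈ I, x * y = y * x := fun x hx y hy =>
    congrArg Subtype.val (mul_comm' (⟨x, hx⟩ : I) ⟨y, hy⟩)
  have h2 : ∀ x ∈ I, x ^ 2 = 1 := hI.2
  obtain ⟨b, hbI, hb0, hbB⟩ : ∃ b ∈ I, b ∉ I₀ ∧
      ∀ T ∈ I, T ≠ 1 → ¬ Cyc T → ∃ i ∈ I₀, T = b * i := by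
    by_cases hB : ∃ T ∈ I, T ≠ 1 ∧ ¬ Cyc T
    · obtain ⟨b, hbI, hb1, hbc⟩ := hB
      refine ⟨b, hbI, fun h => hbc (hdisj b h hb1), fun T hT hT1 hTc =>
        ⟨b * T, hprod b hbI T hT hb1 hT1 hbc hTc, ?_⟩⟩
      rw [← mul_assoc, ← pow_two, h2 b hbI, one_mul]
    · push Not at hB
      obtain ⟨b, hbI, hb0⟩ := SetLike.exists_of_lt hI₀
      exact ⟨b, hbI, hb0, fun T hT hT1 hTc => absurd (hB T hT hT1) hTc⟩
  obtain ⟨T₁, T₂, hT₁, hT₂, h11, h21, h121, hn1, hn2, hn12⟩ :=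
    exists_pair I I₀ hc h2 hI8 hI₀.le b hbI hb0
  have hcyc : ∀ T ∈ I, T ≠ 1 → (∀ i ∈ I₀, T ≠ b * i) → Cyc T := by
    intro T hT hT1 hn
    by_contra hTc
    obtain ⟨i, hi, rfl⟩ := hbB T hT hT1 hTc
    exact hn i hi rfl
  have hC₁ := hcyc T₁ hT₁ h11 hn1
  have hC₂ := hcyc T₂ hT₂ h21 hn2
  have hC₃ := hcyc (T₁ * T₂) (mul_mem hT₁ hT₂) h121 hn12
  obtain ⟨g₁, hg₁⟩ := id hC₁
  obtain ⟨g₂, hg₂⟩ := id hC₂
  obtain ⟨g₃, hg₃⟩ := id hC₃
  have hnil : Group.IsNilpotent P := hP.isNilpotent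
  have hodd : ¬ 2 ∣ Nat.card P := by
    obtain ⟨n, hn⟩ := IsPGroup.iff_card.1 hP
    rw [hn]
    intro h
    exact hp2 ((Nat.prime_dvd_prime_iff_eq Nat.prime_two hp).1 (Nat.prime_two.dvd_of_dvd_pow h)).symm
  have hgen : closure {g₁, g₂, g₃} = ⊤ := by
    apply gen2 inferInstance hodd T₁ T₂ (hc _ hT₁ _ hT₂) (h2 _ hT₁) (h2 _ hT₂)
    · intro x hx
      exact (zpowers_le.2 (subset_closure (by simp))) ((hg₂ x).1 hx)
    · intro x hx
      exact (zpowers_le.2 (subset_closure (by simp))) ((hg₁ x).1 hx)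
    · intro x hx
      exact (zpowers_le.2 (subset_closure (by simp))) ((hg₃ x).1 hx)
  have hd₁ : ∀ S ∈ I, S g₁ = g₁ ∨ S g₁ = g₁⁻¹ := by
    intro S hS
    have hfix : T₁ g₁ = g₁ := (hg₁ g₁).2 (mem_zpowers _)
    rcases act_cyc hp hp2 hP (hc S hS T₁ hT₁) (h2 S hS) hC₁ with h | h
    · exact Or.inl (h _ hfix)
    · exact Or.inr (h _ hfix)
  have hd₂ : ∀ S ∈ I, S g₂ = g₂ ∨ S g₂ = g₂⁻¹ := by
    intro S hS
    have hfix : T₂ g₂ = g₂ := (hg₂ g₂).2 (mem_zpowers _)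
    rcases act_cyc hp hp2 hP (hc S hS T₂ hT₂) (h2 S hS) hC₂ with h | h
    · exact Or.inl (h _ hfix)
    · exact Or.inr (h _ hfix)
  have hd₃ : ∀ S ∈ I, S g₃ = g₃ ∨ S g₃ = g₃⁻¹ := by
    intro S hS
    have hfix : (T₁ * T₂) g₃ = g₃ := (hg₃ g₃).2 (mem_zpowers _)
    rcases act_cyc hp hp2 hP (hc S hS _ (mul_mem hT₁ hT₂)) (h2 S hS) hC₃ with h | h
    · exact Or.inl (h _ hfix)
    · exact Or.inr (h _ hfix)
  have ext3 : ∀ S S' : MulAut P, S g₁ = S' g₁ → S g₂ = S' g₂ → S g₃ = S' g₃ → S = S' := by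
    intro S S' e1 e2 e3
    have := MonoidHom.eq_of_eqOn_dense hgen (f := S.toMonoidHom) (g := S'.toMonoidHom) (by
      intro x hx
      simp only [Set.mem_insert_iff, Set.mem_singleton_iff] at hx
      rcases hx with rfl | rfl | rfl
      · exact e1
      · exact e2
      · exact e3)
    exact MulEquiv.ext fun x => DFunLike.congr_fun this x
  let f : I → Bool × Bool × Bool := fun S =>
    (decide ((S : MulAut P) g₁ = g₁), decide ((S : MulAut P) g₂ = g₂),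
      decide ((S : MulAut P) g₃ = g₃))
  have haux : ∀ (g : P) (S S' : MulAut P), (S g = g ∨ S g = g⁻¹) → (S' g = g ∨ S' g = g⁻¹) →
      decide (S g = g) = decide (S' g = g) → S g = S' g := by
    intro g S S' h h' hdec
    have hiff : S g = g ↔ S' g = g := by simpa using hdec
    rcases h with h | h
    · rw [h, hiff.1 h]
    · rcases h' with h' | h'
      · rw [hiff.2 h', h']
      · rw [h, h']
  have hfinj : Function.Injective f := by
    intro S S' hSS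
    have e1 : decide ((S : MulAut P) g₁ = g₁) = decide ((S' : MulAut P) g₁ = g₁) :=
      congrArg Prod.fst hSS
    have e2 : decide ((S : MulAut P) g₂ = g₂) = decide ((S' : MulAut P) g₂ = g₂) :=
      congrArg (fun t => t.2.1) hSS
    have e3 : decide ((S : MulAut P) g₃ = g₃) = decide ((S' : MulAut P) g₃ = g₃) :=
      congrArg (fun t => t.2.2) hSS
    exact Subtype.ext (ext3 _ _ (haux _ _ _ (hd₁ _ S.2) (hd₁ _ S'.2) e1)
      (haux _ _ _ (hd₂ _ S.2) (hd₂ _ S'.2) e2) (haux _ _ _ (hd₃ _ S.2) (hd₃ _ S'.2) e3))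
  have hfbij : Function.Bijective f := by
    apply hfinj.bijective_of_nat_card_le
    rw [hI8]
    simp
  obtain ⟨⟨e₁, he₁⟩, hfe₁⟩ := hfbij.2 (false, true, true)
  obtain ⟨⟨e₂, he₂⟩, hfe₂⟩ := hfbij.2 (true, false, true)
  obtain ⟨⟨e₃, he₃⟩, hfe₃⟩ := hfbij.2 (true, true, false)
  simp only [f, Prod.mk.injEq, decide_eq_true_eq, decide_eq_false_iff_not] at hfe₁ hfe₂ hfe₃
  obtain ⟨n11, a12, a13⟩ := hfe₁
  obtain ⟨a21, n22, a23⟩ := hfe₂
  obtain ⟨a31, a32, n33⟩ := hfe₃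
  have a11 : e₁ g₁ = g₁⁻¹ := (hd₁ e₁ he₁).resolve_left n11
  have a22 : e₂ g₂ = g₂⁻¹ := (hd₂ e₂ he₂).resolve_left n22
  have a33 : e₃ g₃ = g₃⁻¹ := (hd₃ e₃ he₃).resolve_left n33
  have hg1 : g₁ ≠ 1 := by rintro rfl; exact n11 (map_one _)
  have hg2 : g₂ ≠ 1 := by rintro rfl; exact n22 (map_one _)
  have hg3 : g₃ ≠ 1 := by rintro rfl; exact n33 (map_one _)
  have hne₁ : e₁ ≠ 1 := by rintro rfl; exact n11 rfl
  have hne₂ : e₂ ≠ 1 := by rintro rfl; exact n22 rfl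
  have hne₃ : e₃ ≠ 1 := by rintro rfl; exact n33 rfl
  -- broad elements
  have hb₁ : ¬ Cyc e₁ := not_cyc hp hp2 hP (hc e₂ he₂ e₁ he₁) (h2 _ he₂) a12 a13 hg2 hg3 a22 a23
  have hb₂ : ¬ Cyc e₂ := not_cyc hp hp2 hP (hc e₁ he₁ e₂ he₂) (h2 _ he₁) a21 a23 hg1 hg3 a11 a13
  have hb₃ : ¬ Cyc e₃ := not_cyc hp hp2 hP (hc e₁ he₁ e₃ he₃) (h2 _ he₁) a31 a32 hg1 hg2 a11 a12
  have h12 : e₁ * e₂ ∈ I₀ := hprod _ he₁ _ he₂ hne₁ hne₂ hb₁ hb₂
  have h13 : e₁ * e₃ ∈ I₀ := hprod _ he₁ _ he₃ hne₁ hne₃ hb₁ hb₃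
  have h23 : e₂ * e₃ ∈ I₀ := hprod _ he₂ _ he₃ hne₂ hne₃ hb₂ hb₃
  have hinvne : ∀ {g : P}, g ≠ 1 → g⁻¹ ≠ g := fun hg h =>
    hg (eq_one_of_eq_inv hp hp2 hP h.symm)
  have hne12 : e₁ * e₂ ≠ 1 := by
    intro h
    have : (e₁ * e₂) g₁ = g₁ := by rw [h]; rfl
    rw [MulAut.mul_apply, a21, a11] at this
    exact hinvne hg1 this
  have hne13 : e₁ * e₃ ≠ 1 := by
    intro h
    have : (e₁ * e₃) g₁ = g₁ := by rw [h]; rfl
    rw [MulAut.mul_apply, a31, a11] at this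
    exact hinvne hg1 this
  have hne23 : e₂ * e₃ ≠ 1 := by
    intro h
    have : (e₂ * e₃) g₂ = g₂ := by rw [h]; rfl
    rw [MulAut.mul_apply, a32, a22] at this
    exact hinvne hg2 this
  -- commutativity
  have c23 : g₂ * g₃ = g₃ * g₂ :=
    comm_of_cyc hp hp2 hP (hc e₁ he₁ _ (hI₀.le h23)) (h2 _ he₁) (h2 _ (hI₀.le h23))
      (hdisj _ h23 hne23) (a := g₁) (by rw [MulAut.mul_apply, a31, a21]) hg1 a11 g₂ g₃ a12 a13
  have c13 : g₁ * g₃ = g₃ * g₁ :=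
    comm_of_cyc hp hp2 hP (hc e₂ he₂ _ (hI₀.le h13)) (h2 _ he₂) (h2 _ (hI₀.le h13))
      (hdisj _ h13 hne13) (a := g₂) (by rw [MulAut.mul_apply, a32, a12]) hg2 a22 g₁ g₃ a21 a23
  have c12 : g₁ * g₂ = g₂ * g₁ :=
    comm_of_cyc hp hp2 hP (hc e₃ he₃ _ (hI₀.le h12)) (h2 _ he₃) (h2 _ (hI₀.le h12))
      (hdisj _ h12 hne12) (a := g₃) (by rw [MulAut.mul_apply, a23, a13]) hg3 a33 g₁ g₂ a31 a32
  have hcomm : ∀ x y : P, x * y = y * x := by
    have hcl := Subgroup.isMulCommutative_closure (k := ({g₁, g₂, g₃} : Set P)) (by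
      intro x hx y hy
      simp only [Set.mem_insert_iff, Set.mem_singleton_iff] at hx hy
      rcases hx with rfl | rfl | rfl <;> rcases hy with rfl | rfl | rfl <;>
        first | rfl | assumption | (symm; assumption))
    intro x y
    have hx : x ∈ closure {g₁, g₂, g₃} := by rw [hgen]; exact mem_top x
    have hy : y ∈ closure {g₁, g₂, g₃} := by rw [hgen]; exact mem_top y
    exact congrArg Subtype.val (mul_comm' (⟨x, hx⟩ : closure {g₁, g₂, g₃}) ⟨y, hy⟩)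
  -- classification of the elements of `I`
  have hcases : ∀ S ∈ I, S = 1 ∨ S = e₁ ∨ S = e₂ ∨ S = e₃ ∨ S = e₁ * e₂ ∨ S = e₁ * e₃ ∨
      S = e₂ * e₃ ∨ S = e₁ * e₂ * e₃ := by
    intro S hS
    rcases hd₁ S hS with s1 | s1 <;> rcases hd₂ S hS with s2 | s2 <;>
      rcases hd₃ S hS with s3 | s3
    · exact Or.inl (ext3 _ _ (by rw [s1]; rfl) (by rw [s2]; rfl) (by rw [s3]; rfl))
    · exact Or.inr (Or.inr (Or.inr (Or.inl (ext3 _ _ (by rw [s1, a31]) (by rw [s2, a32])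
        (by rw [s3, a33])))))
    · exact Or.inr (Or.inr (Or.inl (ext3 _ _ (by rw [s1, a21]) (by rw [s2, a22])
        (by rw [s3, a23]))))
    · refine Or.inr (Or.inr (Or.inr (Or.inr (Or.inr (Or.inr (Or.inl (ext3 _ _ ?_ ?_ ?_)))))))
      · rw [s1, MulAut.mul_apply, a31, a21]
      · rw [s2, MulAut.mul_apply, a32, a22]
      · rw [s3, MulAut.mul_apply, a33, map_inv, a23]
    · exact Or.inr (Or.inl (ext3 _ _ (by rw [s1, a11]) (by rw [s2, a12]) (by rw [s3, a13])))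
    · refine Or.inr (Or.inr (Or.inr (Or.inr (Or.inr (Or.inl (ext3 _ _ ?_ ?_ ?_))))))
      · rw [s1, MulAut.mul_apply, a31, a11]
      · rw [s2, MulAut.mul_apply, a32, a12]
      · rw [s3, MulAut.mul_apply, a33, map_inv, a13]
    · refine Or.inr (Or.inr (Or.inr (Or.inr (Or.inl (ext3 _ _ ?_ ?_ ?_)))))
      · rw [s1, MulAut.mul_apply, a21, a11]
      · rw [s2, MulAut.mul_apply, a22, map_inv, a12]
      · rw [s3, MulAut.mul_apply, a23, a13]
    · refine Or.inr (Or.inr (Or.inr (Or.inr (Or.inr (Or.inr (Or.inr (ext3 _ _ ?_ ?_ ?_)))))))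
      · rw [s1, MulAut.mul_apply, MulAut.mul_apply, a31, a21, a11]
      · rw [s2, MulAut.mul_apply, MulAut.mul_apply, a32, a22, map_inv, a12]
      · rw [s3, MulAut.mul_apply, MulAut.mul_apply, a33, map_inv, a23, map_inv, a13]
  -- the element inverting everything
  have hz : Cyc (e₁ * e₂ * e₃) := by
    have hinv : ∀ x : P, (e₁ * e₂ * e₃) x = x⁻¹ := by
      have := MonoidHom.eq_of_eqOn_dense hgen (f := (e₁ * e₂ * e₃).toMonoidHom)
        (g := MonoidHom.mk' (fun x : P => x⁻¹) (fun x y => by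
          show (x * y)⁻¹ = x⁻¹ * y⁻¹
          rw [mul_inv_rev, hcomm])) (by
        intro x hx
        simp only [Set.mem_insert_iff, Set.mem_singleton_iff] at hx
        rcases hx with rfl | rfl | rfl
        · show (e₁ * e₂ * e₃) x = x⁻¹
          rw [MulAut.mul_apply, MulAut.mul_apply, a31, a21, a11]
        · show (e₁ * e₂ * e₃) x = x⁻¹
          rw [MulAut.mul_apply, MulAut.mul_apply, a32, a22, map_inv, a12]
        · show (e₁ * e₂ * e₃) x = x⁻¹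
          rw [MulAut.mul_apply, MulAut.mul_apply, a33, map_inv, a23, map_inv, a13])
      exact fun x => DFunLike.congr_fun this x
    refine ⟨1, fun x => ?_⟩
    rw [hinv, zpowers_one_eq_bot, mem_bot]
    constructor
    · intro h
      exact eq_one_of_eq_inv hp hp2 hP h.symm
    · rintro rfl
      exact inv_one
  have hbroad : ∀ T : MulAut P, (T ∈ I ∧ T ≠ 1 ∧ ¬ Cyc T) ↔ (T = e₁ ∨ T = e₂ ∨ T = e₃) := by
    intro T
    constructor
    · rintro ⟨hT, hT1, hTc⟩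
      rcases hcases T hT with rfl | rfl | rfl | rfl | rfl | rfl | rfl | rfl
      · exact absurd rfl hT1
      · exact Or.inl rfl
      · exact Or.inr (Or.inl rfl)
      · exact Or.inr (Or.inr rfl)
      · exact absurd (hdisj _ h12 hne12) hTc
      · exact absurd (hdisj _ h13 hne13) hTc
      · exact absurd (hdisj _ h23 hne23) hTc
      · exact absurd hz hTc
    · rintro (rfl | rfl | rfl)
      · exact ⟨he₁, hne₁, hb₁⟩
      · exact ⟨he₂, hne₂, hb₂⟩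
      · exact ⟨he₃, hne₃, hb₃⟩
  have hd12 : e₁ ≠ e₂ := by
    rintro rfl
    exact n11 a21
  have hd13 : e₁ ≠ e₃ := by
    rintro rfl
    exact n11 a31
  have hd23 : e₂ ≠ e₃ := by
    rintro rfl
    exact n22 a32
  refine ⟨⟨⟨hcomm⟩⟩, ⟨g₁, g₂, g₃, hgen⟩,
    not_two_gen hp hp2 hP hcomm g₁ g₂ g₃ e₁ e₂ hg1 hg2 hg3 a11 a12 a13 a22 a23, ?_, ?_, ?_⟩
  · have hset : {T : MulAut P | T ∈ I ∧ T ≠ 1 ∧ ¬ Cyc T} = {e₁, e₂, e₃} := by
      ext T
      simp only [Set.mem_insert_iff, Set.mem_singleton_iff]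
      exact hbroad T
    have h3 : ({T : MulAut P | T ∈ I ∧ T ≠ 1 ∧ ¬ Cyc T}).ncard = 3 :=
      Set.ncard_eq_three.2 ⟨e₁, e₂, e₃, hd12, hd13, hd23, hset⟩
    rw [← h3]
    exact Nat.card_coe_set_eq _
  · apply le_antisymm
    · rw [closure_le]
      intro T hT
      exact hT.1
    · intro S hS
      have m1 : e₁ ∈ closure {T : MulAut P | T ∈ I ∧ T ≠ 1 ∧ ¬ Cyc T} :=
        subset_closure ⟨he₁, hne₁, hb₁⟩
      have m2 : e₂ ∈ closure {T : MulAut P | T ∈ I ∧ T ≠ 1 ∧ ¬ Cyc T} :=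
        subset_closure ⟨he₂, hne₂, hb₂⟩
      have m3 : e₃ ∈ closure {T : MulAut P | T ∈ I ∧ T ≠ 1 ∧ ¬ Cyc T} :=
        subset_closure ⟨he₃, hne₃, hb₃⟩
      rcases hcases S hS with rfl | rfl | rfl | rfl | rfl | rfl | rfl | rfl
      · exact one_mem _
      · exact m1
      · exact m2
      · exact m3
      · exact mul_mem m1 m2
      · exact mul_mem m1 m3
      · exact mul_mem m2 m3
      · exact mul_mem (mul_mem m1 m2) m3
  · ext S
    constructor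
    · intro hS
      have hS' : S ∈ I₀ := hS
      rcases hcases S (hI₀.le hS') with rfl | rfl | rfl | rfl | rfl | rfl | rfl | rfl
      · exact ⟨e₁, e₁, he₁, he₁, hne₁, hne₁, hb₁, hb₁, by rw [← pow_two, h2 _ he₁]⟩
      · exact absurd (hdisj _ hS' hne₁) hb₁
      · exact absurd (hdisj _ hS' hne₂) hb₂
      · exact absurd (hdisj _ hS' hne₃) hb₃
      · exact ⟨e₁, e₂, he₁, he₂, hne₁, hne₂, hb₁, hb₂, rfl⟩
      · exact ⟨e₁, e₃, he₁, he₃, hne₁, hne₃, hb₁, hb₃, rfl⟩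
      · exact ⟨e₂, e₃, he₂, he₃, hne₂, hne₃, hb₂, hb₃, rfl⟩
      · exfalso
        have h1 : e₁ * e₂ * e₃ * (e₂ * e₃) ∈ I₀ := mul_mem hS' h23
        have h3 : e₁ * e₂ * e₃ * (e₂ * e₃) = e₁ := by
          apply ext3
          · simp only [MulAut.mul_apply, a31, a21]
          · simp only [MulAut.mul_apply, a32, a22, map_inv, inv_inv]
          · simp only [MulAut.mul_apply, a33, a23, map_inv, inv_inv]
        rw [h3] at h1
        exact hb₁ (hdisj _ h1 hne₁)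
    · rintro ⟨T, T', hT, hT', hT1, hT'1, hTc, hT'c, rfl⟩
      exact hprod T hT T' hT' hT1 hT'1 hTc hT'c

end Cfsg.Agent.Lib.Helper46.EightAct
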